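import Cfsg.Agent.KnownA.Cover.Steinberg
import Cfsg.Agent.Chev.TorusCard
import Mathlib.GroupTheory.NoncommPiCoprod

/-!
The torus of Steinberg's group as an image of `(Kˣ)^l`; its intersection with the centre.
-/

set_option autoImplicit false

universe u

namespace Cfsg.Agent.KnownA.Cover

open Cfsg.Lie Cfsg.Agent.Chev

variable {D : ChevalleyDatum} {K : Type u} [Field K]

/-- `h̄_{p_i}(t)` in Steinberg's group. -/
noncomputable def hSt (D : ChevalleyDatum) {K : Type u} [Field K] (i : ℕ) (t : K) : D.SteinbergGroup K :=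
  PresentedGroup.mk (D.steinbergRels K) (D.stH (D.simple i) t)

variable (C : Cert.{u} D)
include C

theorem hSt_mul {i : ℕ} (hi : i < D.rank) {a b : K} (ha : a ≠ 0) (hb : b ≠ 0) :
    hSt D i a * hSt D i b = hSt D i (a * b) := by
  have h := PresentedGroup.one_of_mem (rels := D.steinbergRels K)
    (Or.inr ⟨D.simple i, a, b, C.simple_lt i hi, ha, hb, rfl⟩)
  rwa [map_mul, map_inv, map_mul, mul_inv_eq_one] at h

/-- `t ↦ h̄_{p_i}(t)` as a homomorphism. -/
noncomputable def hStHom (i : Fin D.rank) : Kˣ →* D.SteinbergGroup K :=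
  MonoidHom.mk' (fun t => hSt D i (t : K)) fun a b => by
    rw [Units.val_mul, hSt_mul C i.isLt a.ne_zero b.ne_zero]

variable (hc : cornerCheck D = true)
include hc

theorem hSt_comm {i j : ℕ} (hi : i < D.rank) (hj : j < D.rank) {a b : K} (ha : a ≠ 0) (hb : b ≠ 0) :
    Commute (hSt D i a) (hSt D j b) := by
  set c := a ^ D.cartan i (D.simple j)
  have hc0 : c ≠ 0 := zpow_ne_zero _ ha
  have h1 := hEl_conj_wEl C hc hj hi ha b
  have h2 := hEl_conj_wEl C hc hj hi ha (-1 : K)
  have e : hEl D i a * hEl D j b * (hEl D i a)⁻¹ = hEl D j (c * b) * (hEl D j c)⁻¹ := by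
    have e1 : hEl D i a * hEl D j b * (hEl D i a)⁻¹ =
        (hEl D i a * wEl D j b * (hEl D i a)⁻¹) * (hEl D i a * wEl D j (-1) * (hEl D i a)⁻¹) := by
      rw [show hEl D j b = wEl D j b * wEl D j (-1) from rfl]; group
    rw [e1, h1, h2, mul_neg, mul_one, show hEl D j (c * b) = wEl D j (c * b) * wEl D j (-1) from rfl,
      show hEl D j c = wEl D j c * wEl D j (-1) from rfl, mul_inv_rev, wEl_inv, wEl_inv,
      _root_.neg_neg, ← mul_assoc, mul_assoc (wEl D j (c * b)) (wEl D j (-1)), ← wEl_inv j (1 : K),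
      inv_mul_cancel, mul_one]
  have h := congrArg (toSt D K) e
  simp only [map_mul, map_inv, toSt_hEl] at h
  change hSt D i a * hSt D j b * (hSt D i a)⁻¹ = hSt D j (c * b) * (hSt D j c)⁻¹ at h
  rw [mul_comm c b, ← hSt_mul C hj hb hc0, mul_inv_cancel_right] at h
  exact mul_inv_eq_iff_eq_mul.1 h

theorem hStHom_comm :
    Pairwise fun i j : Fin D.rank => ∀ x y : Kˣ, Commute (hStHom C i x) (hStHom C j y) :=
  fun i j _ x y => hSt_comm C hc i.isLt j.isLt x.ne_zero y.ne_zero

/-- The map `(Kˣ)^l → H̄`. -/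
noncomputable def torusHom : (Fin D.rank → Kˣ) →* D.SteinbergGroup K :=
  MonoidHom.noncommPiCoprod (hStHom C) (hStHom_comm C hc)

theorem range_torusHom : (torusHom C hc (K := K)).range = torSt D K := by
  rw [torusHom, MonoidHom.noncommPiCoprod_range]
  refine le_antisymm (iSup_le fun i => ?_) ((Subgroup.closure_le _).2 ?_)
  · rintro _ ⟨t, rfl⟩
    exact Subgroup.subset_closure ⟨i, t, i.isLt, t.ne_zero, rfl⟩
  · rintro _ ⟨i, t, hi, ht, rfl⟩
    exact Subgroup.mem_iSup_of_mem (⟨i, hi⟩ : Fin D.rank) ⟨Units.mk0 t ht, rfl⟩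

theorem torusHom_conj (c : Fin D.rank → Kˣ) {r : ℕ} (hr : r < D.nroots) (v : K) :
    torusHom C hc c * D.stGen K r v * (torusHom C hc c)⁻¹ =
      D.stGen K r ((∏ k : Fin D.rank, ((c k : K) ^ D.cartan k r)) * v) := by
  rw [torusHom, MonoidHom.noncommPiCoprod_apply]
  suffices h : ∀ (S : Finset (Fin D.rank)) (hS : (S : Set (Fin D.rank)).Pairwise
      (Function.onFun Commute fun k => hStHom C k (c k))) (v : K),
      S.noncommProd (fun k => hStHom C k (c k)) hS * D.stGen K r v *
        (S.noncommProd (fun k => hStHom C k (c k)) hS)⁻¹ =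
      D.stGen K r ((∏ k ∈ S, ((c k : K) ^ D.cartan k r)) * v) from h Finset.univ _ v
  intro S
  induction S using Finset.induction_on with
  | empty => intro _ v; simp
  | insert a S ha ih =>
    intro hS v
    rw [Finset.noncommProd_insert_of_notMem _ _ _ _ ha, Finset.prod_insert ha, mul_assoc _ _ v]
    set P := S.noncommProd (fun k => hStHom C k (c k)) _
    have e := congrArg (toSt D K) (hEl_conj C hc a.isLt hr (c a).ne_zero
      ((∏ k ∈ S, ((c k : K) ^ D.cartan k r)) * v))
    simp only [map_mul, map_inv, toSt_hEl, toSt_gen] at e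
    rw [← e, ← ih (hS.mono fun x hx => Finset.mem_insert_of_mem hx) v]
    show hStHom C a (c a) * P * _ * (hStHom C a (c a) * P)⁻¹ =
      hStHom C a (c a) * (P * _ * P⁻¹) * (hStHom C a (c a))⁻¹
    group

theorem torusHom_central_iff (c : Fin D.rank → Kˣ) :
    torusHom C hc c ∈ Subgroup.center (D.SteinbergGroup K) ↔ torusMap Kˣ (cartMat D) c = 1 := by
  have hprod : ∀ r < D.nroots, (∏ k : Fin D.rank, ((c k : K) ^ D.cartan k r)) =
      ∏ j : Fin D.rank, (((torusMap Kˣ (cartMat D) c j : Kˣ) : K)) ^ C.coef r j := by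
    intro r hr
    have hlin : ∀ k : Fin D.rank, D.cartan k r =
        ∑ j : Fin D.rank, C.coef r j * D.cartan k (D.simple j) := fun k => by
      rw [C.cartan_linear k k.isLt r hr, Finset.sum_range]
    have hu : (∏ k : Fin D.rank, (c k) ^ D.cartan k r) =
        ∏ j : Fin D.rank, (torusMap Kˣ (cartMat D) c j) ^ C.coef r j := by
      simp_rw [hlin, zpow_sum_eq, torusMap_apply, cartMat, ← Finset.prod_zpow, ← zpow_mul]
      rw [Finset.prod_comm]
      exact Finset.prod_congr rfl fun j _ => Finset.prod_congr rfl fun k _ => by rw [mul_comm]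
    simpa using congrArg (Units.val : Kˣ → K) hu
  constructor
  · intro hz
    funext j
    apply Units.ext
    have h := torusHom_conj C hc c (C.simple_lt j j.isLt) (1 : K)
    rw [← (Subgroup.mem_center_iff.1 hz (D.stGen K (D.simple j) 1)), mul_inv_cancel_right] at h
    have h' := congrArg (fun g => (thetaSt C g : GL D.Idx K)) h
    simp only [thetaSt_gen] at h'
    have e := (xu_eq C (C.simple_lt j j.isLt) (C.simple_lt j j.isLt) one_ne_zero h').2
    rw [mul_one] at e
    rw [torusMap_apply, Units.coe_prod, Pi.one_apply, Units.val_one]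
    refine Eq.trans (Finset.prod_congr rfl fun k _ => ?_) e
    simp [cartMat]
  · intro hker
    rw [Subgroup.mem_center_iff]
    intro g
    have hg : g ∈ Subgroup.centralizer {torusHom C hc c} := by
      suffices (⊤ : Subgroup (D.SteinbergGroup K)) ≤ Subgroup.centralizer {torusHom C hc c} from
        this trivial
      rw [← PresentedGroup.closure_range_of (D.steinbergRels K), Subgroup.closure_le]
      rintro _ ⟨⟨⟨r, hr⟩, t⟩, rfl⟩
      have e : (PresentedGroup.of (⟨r, hr⟩, t) : D.SteinbergGroup K) = D.stGen K r t := by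
        rw [ChevalleyDatum.stGen, ChevalleyDatum.stX, dif_pos hr]; rfl
      rw [e, SetLike.mem_coe, Subgroup.mem_centralizer_singleton_iff]
      have h := torusHom_conj C hc c hr t
      rw [hprod r hr, Finset.prod_eq_one (fun j _ => by rw [hker, Pi.one_apply, Units.val_one, one_zpow]),
        one_mul, mul_inv_eq_iff_eq_mul] at h
      exact h.symm
    exact Subgroup.mem_centralizer_singleton_iff.1 hg

theorem center_eq_map {M : CoxeterMatrix (Fin D.rank)} (hM : CoxOK D M) :
    Subgroup.center (D.SteinbergGroup K) =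
      (torusMap Kˣ (cartMat D)).ker.map (torusHom (K := K) C hc) := by
  ext z
  constructor
  · intro hz
    have h := (ker_thetaSt (K := K) C hc hM).2
      (by rwa [(ker_thetaSt (K := K) C hc hM).1])
    rw [← range_torusHom C hc] at h
    obtain ⟨c, rfl⟩ := h
    exact ⟨c, (torusHom_central_iff C hc c).1 hz, rfl⟩
  · rintro ⟨c, hker, rfl⟩
    exact (torusHom_central_iff C hc c).2 hker

theorem center_bot_of_unimodular {M : CoxeterMatrix (Fin D.rank)} (hM : CoxOK D M)
    (B : Matrix (Fin D.rank) (Fin D.rank) ℤ) (hB : cartMat D * B = 1) :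
    Subgroup.center (D.SteinbergGroup K) = ⊥ := by
  rw [center_eq_map C hc hM, Subgroup.map_eq_bot_iff]
  intro c hker
  rw [MonoidHom.mem_ker] at hker
  have h := congrArg (torusMap Kˣ B) hker
  rw [map_one, ← MonoidHom.comp_apply, ← torusMap_mul, hB, torusMap_one, MonoidHom.id_apply] at h
  rw [h]
  exact one_mem _

end Cfsg.Agent.KnownA.Cover
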